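import Mathlib
import Cfsg.Prelude.Def_Classical

/-! Polar spaces with a group acting on them: the interface for the recognition step. -/

set_option autoImplicit false

namespace Cfsg.Agent.PT

/-- `G` is symplectic or unitary in characteristic `p`. -/
def Concl (G : Type*) [Group G] (p : ℕ) : Prop :=
  ∃ (F : Type) (_ : Field F) (_ : Fintype F), ringChar F = p ∧
    ((∃ m : ℕ, 1 ≤ m ∧ Nonempty (G ≃* Cfsg.PSp m F)) ∨
      (∃ (n q : ℕ), 2 ≤ n ∧ Fintype.card F = q ^ 2 ∧ Nonempty (G ≃* Cfsg.PSU n F q)))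

section

variable {Ω : Type*} (R : Ω → Ω → Prop)

/-- the points collinear with all points of `A` -/
def pp (A : Set Ω) : Set Ω := {y | ∀ x ∈ A, R x y}

/-- the line through two collinear points -/
def lin (a b : Ω) : Set Ω := pp R (pp R {a, b})

/-- a partial frame: `k` mutually orthogonal hyperbolic pairs -/
structure Fr {k : ℕ} (x y : Fin k → Ω) : Prop where
  op : ∀ i, ¬ R (x i) (y i)
  xx : ∀ i j, R (x i) (x j)
  yy : ∀ i j, R (y i) (y j)
  xy : ∀ i j, i ≠ j → R (x i) (y j)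

/-- the residue of a partial frame -/
def Rs {k : ℕ} (x y : Fin k → Ω) : Set Ω := {c | ∀ i, R (x i) c ∧ R (y i) c}

variable (G : Type*) [Group G] [MulAction G Ω]

/-- the pointwise stabilizer of a partial frame -/
def FS {k : ℕ} (x y : Fin k → Ω) : Subgroup G :=
  ⨅ i, MulAction.stabilizer G (x i) ⊓ MulAction.stabilizer G (y i)

/-- the unipotent radical of the point `a` in the residue of the frame -/
structure Rad (p : ℕ) {k : ℕ} (x y : Fin k → Ω) (a : Ω) (Q : Subgroup G) : Prop where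
  pg : IsPGroup p Q
  le : Q ≤ FS G x y ⊓ MulAction.stabilizer G a
  norm : ∀ h ∈ FS G x y, h • a = a → ∀ g ∈ Q, h * g * h⁻¹ ∈ Q
  lines : ∀ g ∈ Q, ∀ c ∈ Rs R x y, R a c → pp R {a, g • c} = pp R {a, c}
  tr : ∀ b ∈ Rs R x y, ∀ c ∈ Rs R x y, ¬ R a b → ¬ R a c → ∃ g ∈ Q, g • b = c

/-- a thick nondegenerate polar space of rank at least two, `R` being collinearity, with a group
acting on it that contains central elations of order `p` -/
structure PS (p : ℕ) : Prop where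
  refl : ∀ a, R a a
  symm : ∀ a b, R a b → R b a
  inv : ∀ (g : G) a b, R a b → R (g • a) (g • b)
  line : ∀ a b c, R a b → a ≠ b → c ∈ lin R a b → c ≠ a → pp R {a, c} = pp R {a, b}
  one : ∀ a b y, R a b → a ≠ b → ∃ c ∈ lin R a b, R c y
  thick : ∀ a b, R a b → a ≠ b → ∃ c ∈ lin R a b, c ≠ a ∧ c ≠ b
  big : ∃ a b, a ≠ b ∧ R a b
  tr : ∀ (k : ℕ) (x y : Fin k → Ω), Fr R x y → ∀ a ∈ Rs R x y, ∀ b ∈ Rs R x y,
    ∃ g ∈ FS G x y, g • a = b
  nd : ∀ (k : ℕ) (x y : Fin k → Ω), Fr R x y → ∀ a ∈ Rs R x y, ∀ b ∈ Rs R x y,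
    (∀ c ∈ Rs R x y, R a c → R b c) → a = b
  op : ∀ (k : ℕ) (x y : Fin k → Ω), Fr R x y → ∀ a ∈ Rs R x y,
    ∃ b ∈ Rs R x y, ∃ c ∈ Rs R x y, b ≠ c ∧ ¬ R a b ∧ ¬ R a c
  rad : ∀ (k : ℕ) (x y : Fin k → Ω), Fr R x y → ∀ a ∈ Rs R x y, ∃ Q, Rad R G p x y a Q
  sw : ∀ a b, ¬ R a b → ∃ g : G, g • a = b ∧ g • b = a ∧ ∀ c, R a c → R b c → g • c = c
  cen : ∀ a, ∃ d : G, orderOf d = p ∧ ∀ c, R a c → d • c = c

end

end Cfsg.Agent.PT
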