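import Mathlib
import Cfsg.Agent.PT.Iface
import Cfsg.Agent.Cl.EichRoots

/-! Polar spaces with a group: maximal frames and their residues. -/

set_option autoImplicit false

namespace Cfsg.Agent.PT

open Cfsg.Agent.Ch Cfsg.Agent.Cl.EB

variable {G Ω : Type*} [Group G] [MulAction G Ω] {R : Ω → Ω → Prop} {p m : ℕ}

theorem mem_pp2 {a b c : Ω} : c ∈ pp R {a, b} ↔ R a c ∧ R b c := by simp [pp]

theorem pp2_eq {a b b' : Ω} : pp R {a, b} = pp R {a, b'} ↔ ∀ c, R a c → (R b c ↔ R b' c) := by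
  simp only [Set.ext_iff, mem_pp2, and_congr_right_iff]

/-- A maximal frame. -/
structure MF (R : Ω → Ω → Prop) (v : Jx m → Ω) : Prop where
  rel : ∀ a b, R (v a) (v b) ↔ b ≠ bar a
  max : ∀ c, ¬ ∀ a, R (v a) c

/-- The residue of the pairs with index in `I`. -/
def RI (R : Ω → Ω → Prop) (v : Jx m → Ω) (I : Set (Fin m)) : Set Ω :=
  {c | ∀ a : Jx m, a.1 ∈ I → R (v a) c}

variable (G) in
/-- The pointwise stabiliser of the pairs with index in `I`. -/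
def FI (v : Jx m → Ω) (I : Set (Fin m)) : Subgroup G where
  carrier := {g | ∀ a : Jx m, a.1 ∈ I → g • v a = v a}
  one_mem' := fun _ _ => one_smul _ _
  mul_mem' := fun hg hh a ha => by rw [mul_smul, hh a ha, hg a ha]
  inv_mem' := fun hg a ha => by rw [inv_smul_eq_iff, hg a ha]

/-- `Rad` for the pairs with index in `I`. -/
structure RdI (R : Ω → Ω → Prop) (p : ℕ) (v : Jx m → Ω) (I : Set (Fin m)) (a : Ω) (Q : Subgroup G) :
    Prop where
  pg : IsPGroup p Q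
  le : Q ≤ FI G v I
  fix : ∀ g ∈ Q, g • a = a
  norm : ∀ h ∈ FI G v I, h • a = a → ∀ g ∈ Q, h * g * h⁻¹ ∈ Q
  lines : ∀ g ∈ Q, ∀ c ∈ RI R v I, R a c → pp R {a, g • c} = pp R {a, c}
  tr : ∀ b ∈ RI R v I, ∀ c ∈ RI R v I, ¬ R a b → ¬ R a c → ∃ g ∈ Q, g • b = c

variable {v : Jx m → Ω} {I : Set (Fin m)}

theorem MF.inj (hv : MF R v) : Function.Injective v := fun a b e => by
  by_contra h
  exact (hv.rel a (bar a)).1 (e ▸ (hv.rel b (bar a)).2 fun e' => h (bar_inj.1 e')) rfl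

theorem MF.not_bar (hv : MF R v) (a : Jx m) : ¬ R (v a) (v (bar a)) := fun h => (hv.rel _ _).1 h rfl

theorem MF.of_fst (hv : MF R v) {a b : Jx m} (h : a.1 ≠ b.1) : R (v a) (v b) :=
  (hv.rel _ _).2 (ne_of_fst_ne h).2.2.2.2.2

theorem MF.mem_RI (hv : MF R v) {a : Jx m} (h : a.1 ∉ I) : v a ∈ RI R v I :=
  fun _ hb => hv.of_fst fun e => h (e ▸ hb)

variable (G) in
theorem MF.sub (hv : MF R v) (I : Set (Fin m)) :
    ∃ (k : ℕ) (x y : Fin k → Ω), Fr R x y ∧ Rs R x y = RI R v I ∧ FS G x y = FI G v I := by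
  classical
  have := Fintype.ofFinite I
  let e := (Fintype.equivFin I).symm
  have key : ∀ P : Jx m → Prop, (∀ i, P (e i, true) ∧ P (e i, false)) ↔ ∀ a : Jx m, a.1 ∈ I → P a :=
    fun P => ⟨fun h ⟨a, b⟩ ha => by
      obtain ⟨i, hi⟩ := e.surjective ⟨a, ha⟩
      have := h i
      rw [hi] at this
      cases b
      exacts [this.2, this.1], fun h i => ⟨h _ (e i).2, h _ (e i).2⟩⟩
  refine ⟨_, fun i => v (e i, true), fun i => v (e i, false), ⟨fun i => hv.not_bar (_, true),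
    fun i j => (hv.rel _ _).2 (by simp [bar]), fun i j => (hv.rel _ _).2 (by simp [bar]),
    fun i j h => hv.of_fst fun e' => h (e.injective (Subtype.ext e'))⟩,
    Set.ext fun c => key fun a => R (v a) c, Subgroup.ext fun g => ?_⟩
  rw [FS, Subgroup.mem_iInf]
  exact key fun a => g • v a = v a

namespace PS

variable (h : PS R G p)
include h

theorem inv_iff (g : G) {a b : Ω} : R (g • a) (g • b) ↔ R a b :=
  ⟨fun e => by simpa using h.inv g⁻¹ _ _ e, h.inv g a b⟩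

theorem inv_left {g : G} {a b : Ω} : R (g • a) b ↔ R a (g⁻¹ • b) := by
  rw [← h.inv_iff g⁻¹, inv_smul_smul]

theorem comm {a b : Ω} : R a b ↔ R b a := ⟨h.symm a b, h.symm b a⟩

theorem smul_RI {g : G} (hg : g ∈ FI G v I) {c : Ω} (hc : c ∈ RI R v I) : g • c ∈ RI R v I :=
  fun a ha => hg a ha ▸ h.inv g _ _ (hc a ha)

theorem of_lin {a b c y : Ω} (hc : c ∈ lin R a b) (ha : R a y) (hb : R b y) : R c y :=
  h.symm _ _ (hc y (mem_pp2.2 ⟨ha, hb⟩))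

/-- Projection of `z` from `a` to the perp of `y`. -/
theorem proj {a z y : Ω} (h1 : R a z) (h2 : a ≠ z) (h3 : ¬ R a y) :
    ∃ z', R z' y ∧ ∀ c, R a c → (R z' c ↔ R z c) := by
  obtain ⟨c, hc, h4⟩ := h.one a z y h1 h2
  exact ⟨c, h4, pp2_eq.1 (h.line a z c h1 h2 hc fun e => h3 (e ▸ h4))⟩

theorem extend {k : ℕ} {x y : Fin k → Ω} (hf : Fr R x y) {a : Ω} (ha : a ∈ Rs R x y) :
    ∃ b, Fr R (Fin.cons a x : Fin (k + 1) → Ω) (Fin.cons b y) := by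
  obtain ⟨b, hb, -, -, -, h1, -⟩ := h.op k x y hf a ha
  refine ⟨b, fun i => ?_, fun i j => ?_, fun i j => ?_, fun i j => ?_⟩
  · exact Fin.cases h1 hf.op i
  · exact Fin.cases (Fin.cases (h.refl a) (fun j => h.symm _ _ (ha j).1) j)
      (fun i => Fin.cases (ha i).1 (hf.xx i) j) i
  · exact Fin.cases (Fin.cases (h.refl b) (fun j => h.symm _ _ (hb j).2) j)
      (fun i => Fin.cases (hb i).2 (hf.yy i) j) i
  · exact Fin.cases (Fin.cases (fun e => absurd rfl e) (fun j _ => h.symm _ _ (ha j).2) j)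
      (fun i => Fin.cases (fun _ => (hb i).1)
        (fun j e => hf.xy i j fun e' => e (congrArg Fin.succ e')) j) i

theorem exists_mf [Finite Ω] : ∃ (n : ℕ) (v : Jx (n + 2) → Ω), MF R v := by
  classical
  let S : ℕ → Prop := fun k => ∃ x y : Fin k → Ω, Fr R x y
  have h1 : ∀ k, S k → k ≤ Nat.card Ω := fun k ⟨x, y, hf⟩ => by
    have : Function.Injective x := fun i j e => by
      by_contra hne
      exact hf.op j (e ▸ hf.xy i j hne)
    simpa using Nat.card_le_card_of_injective x this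
  have h2 : S 2 := by
    obtain ⟨a, b, hne, hab⟩ := h.big
    have f0 : Fr R (Fin.elim0 : Fin 0 → Ω) Fin.elim0 :=
      ⟨fun i => i.elim0, fun i => i.elim0, fun i => i.elim0, fun i => i.elim0⟩
    obtain ⟨y, f1⟩ := h.extend f0 (a := a) fun i => i.elim0
    obtain ⟨c, hc, h3⟩ := h.one a b y hab hne
    obtain ⟨z, f2⟩ := h.extend f1 (a := c) fun i => Fin.cases
      ⟨h.symm _ _ (h.of_lin hc (h.refl a) (h.symm _ _ hab)), h.symm _ _ h3⟩ (fun i => i.elim0) i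
    exact ⟨_, _, f2⟩
  have h3 := Nat.le_findGreatest (h1 2 h2) h2
  obtain ⟨x, y, hf⟩ := Nat.findGreatest_spec (h1 2 h2) h2
  have h4 : ¬ S (Nat.findGreatest S (Nat.card Ω) + 1) := fun e =>
    Nat.findGreatest_is_greatest (Nat.lt_succ_self _) (h1 _ e) e
  generalize Nat.findGreatest S (Nat.card Ω) = k at *
  obtain ⟨n, rfl⟩ := Nat.exists_eq_add_of_le' h3
  refine ⟨n, fun a => if a.2 then x a.1 else y a.1, fun ⟨i, s⟩ ⟨j, t⟩ => ?_, fun c hc => h4 ?_⟩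
  · by_cases e : i = j
    · subst e
      cases s <;> cases t <;> simp [bar, h.refl, hf.op, h.comm (a := y i)]
    · cases s <;> cases t <;> simp [bar, Ne.symm e, hf.xx, hf.yy, hf.xy _ _ e,
        h.symm _ _ (hf.xy _ _ (Ne.symm e))]
  · obtain ⟨b, hb⟩ := h.extend hf (a := c) fun i => ⟨hc (i, true), hc (i, false)⟩
    exact ⟨_, _, hb⟩

variable (hv : MF R v)
include hv

theorem trI {a b : Ω} (ha : a ∈ RI R v I) (hb : b ∈ RI R v I) : ∃ g ∈ FI G v I, g • a = b := by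
  obtain ⟨k, x, y, hf, e1, e2⟩ := hv.sub G I
  exact e2 ▸ h.tr k x y hf a (e1 ▸ ha) b (e1 ▸ hb)

theorem ndI {a b : Ω} (ha : a ∈ RI R v I) (hb : b ∈ RI R v I)
    (H : ∀ c ∈ RI R v I, R a c → R b c) : a = b := by
  obtain ⟨k, x, y, hf, e1, -⟩ := hv.sub G I
  exact h.nd k x y hf a (e1 ▸ ha) b (e1 ▸ hb) (e1 ▸ H)

theorem opI {a : Ω} (ha : a ∈ RI R v I) (u : Ω) : ∃ b ∈ RI R v I, b ≠ u ∧ ¬ R a b := by
  obtain ⟨k, x, y, hf, e1, -⟩ := hv.sub G I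
  obtain ⟨b, hb, c, hc, h1, h2, h3⟩ := h.op k x y hf a (e1 ▸ ha)
  by_cases e : b = u
  · exact ⟨c, e1 ▸ hc, e ▸ h1.symm, h3⟩
  · exact ⟨b, e1 ▸ hb, e, h2⟩

theorem radI {a : Ω} (ha : a ∈ RI R v I) : ∃ Q : Subgroup G, RdI R p v I a Q := by
  obtain ⟨k, x, y, hf, e1, e2⟩ := hv.sub G I
  obtain ⟨Q, hQ⟩ := h.rad k x y hf a (e1 ▸ ha)
  exact ⟨Q, hQ.pg, e2 ▸ hQ.le.trans inf_le_left, fun g hg => (hQ.le hg).2, e2 ▸ hQ.norm,
    e1 ▸ hQ.lines, e1 ▸ hQ.tr⟩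

theorem extI {a b a' b' : Ω} (ha : a ∈ RI R v I) (hb : b ∈ RI R v I) (ha' : a' ∈ RI R v I)
    (hb' : b' ∈ RI R v I) (h1 : ¬ R a b) (h2 : ¬ R a' b') :
    ∃ g ∈ FI G v I, g • a = a' ∧ g • b = b' := by
  obtain ⟨g, hg, rfl⟩ := h.trI hv ha ha'
  obtain ⟨Q, hQ⟩ := h.radI hv ha'
  obtain ⟨q, hq, e⟩ := hQ.tr _ (h.smul_RI hg hb) _ hb' (by rwa [h.inv_iff]) h2
  exact ⟨q * g, mul_mem (hQ.le hq) hg, by rw [mul_smul, hQ.fix q hq], by rw [mul_smul, e]⟩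

/-- The reflections are induced by elements of the group. -/
theorem exists_rf {a b : Jx m} (hab : b ≠ bar a) : ∃ g : G, ∀ c, g • v c = v (rfF a b c) := by
  by_cases e : a = b
  · subst e
    obtain ⟨g, h1, h2, h3⟩ := h.sw _ _ (hv.not_bar a)
    refine ⟨g, fun c => ?_⟩
    unfold rfF
    split_ifs with c1 c2
    · rw [c1, h1]
    · rw [c2, h2]
    · exact h3 _ ((hv.rel _ _).2 c2) ((hv.rel _ _).2 (by rwa [bar_bar]))
  have hne : a.1 ≠ b.1 := fst_ne_iff.2 ⟨e, fun e' => hab (by rw [e', bar_bar])⟩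
  obtain ⟨g, hg, h1, h2⟩ := h.extI hv (I := {j | j ≠ a.1 ∧ j ≠ b.1}) (a := v a) (b := v (bar a))
    (a' := v (bar b)) (b' := v b) (hv.mem_RI (by simp)) (hv.mem_RI (by simp)) (hv.mem_RI (by simp))
    (hv.mem_RI (by simp)) (hv.not_bar a) (fun e => hv.not_bar b (h.symm _ _ e))
  have key : ∀ c : Jx m, c.1 = b.1 → g • v c ∈ RI R v {j | j ≠ a.1} := fun c hc d hd => by
    by_cases e' : d.1 = b.1
    · rcases fst_eq_iff.1 e' with rfl | rfl
      · exact h2 ▸ h.inv g _ _ (hv.of_fst (by rwa [bar_fst, hc]))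
      · exact h1 ▸ h.inv g _ _ (hv.of_fst (by rwa [hc]))
    · exact h.smul_RI hg (hv.mem_RI (by simp [hc])) d ⟨hd, e'⟩
  obtain ⟨k, hk, h3, h4⟩ := h.extI hv (I := {j | j ≠ a.1}) (key (bar b) rfl) (key b rfl)
    (a' := v a) (b' := v (bar a)) (hv.mem_RI (by simp)) (hv.mem_RI (by simp))
    (by rw [h.inv_iff, h.comm]; exact hv.not_bar b) (hv.not_bar a)
  refine ⟨k * g, fun c => ?_⟩
  unfold rfF
  rw [mul_smul]
  split_ifs with c1 c2 c3 c4
  · rw [c1, h1, hk (bar b) hne.symm]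
  · rw [c2, h3]
  · rw [c3, h2, hk _ hne.symm]
  · rw [c4, h4]
  · have c5 : c.1 ≠ a.1 := fst_ne_iff.2 ⟨c1, c3⟩
    rw [hg c ⟨c5, fst_ne_iff.2 ⟨c4, c2⟩⟩, hk c c5]

/-- Elements of the root group of `e_a + e_b`. -/
theorem exists_move {a b : Jx m} (hne : a.1 ≠ b.1) {z : Ω} (h1 : z ≠ v a)
    (h2 : pp R {v a, z} = pp R {v a, v (bar b)}) :
    ∃ g : G, g • v (bar b) = z ∧ (∀ c, c ≠ bar a → c ≠ bar b → g • v c = v c) ∧
      pp R {v b, g • v (bar a)} = pp R {v b, v (bar a)} := by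
  obtain ⟨Q, hQ⟩ := h.radI hv (I := {j | j ≠ a.1 ∧ j ≠ b.1}) (a := v b) (hv.mem_RI (by simp))
  have h3 := pp2_eq.1 h2
  have h4 : ¬ R (v b) z := fun e =>
    hv.not_bar b (h.symm _ _ ((h3 _ (hv.of_fst hne)).1 (h.symm _ _ e)))
  obtain ⟨g, hg, e⟩ := hQ.tr (v (bar b)) (hv.mem_RI (by simp)) z (fun c hc => h.symm _ _
    ((h3 _ (hv.of_fst hc.1.symm)).2 (hv.of_fst hc.2.symm))) (hv.not_bar b) h4
  have h5 : g • v a = v a := by
    by_contra h5
    have h6 := pp2_eq.1 (hQ.lines g hg (v a) (hv.mem_RI (by simp)) (hv.of_fst hne.symm))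
    have h7 := h.line (v a) (v b) (g • v a) (hv.of_fst hne) (fun e => hne (congrArg _ (hv.inj e)))
      (fun c hc => h.symm _ _ ((h6 c (mem_pp2.1 hc).2).2 (mem_pp2.1 hc).1)) h5
    have h8 : R (v a) (v (bar b)) := hv.of_fst hne
    exact h4 ((pp2_eq.1 h7 z (h.symm _ _ ((h3 _ (h.refl _)).2 (h.symm _ _ h8)))).1
      (e ▸ h.inv g _ _ h8))
  refine ⟨g, e, fun c c1 c2 => ?_,
    hQ.lines g hg _ (hv.mem_RI (by simp)) (hv.of_fst hne.symm)⟩
  by_cases c3 : c = a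
  · rw [c3, h5]
  by_cases c4 : c = b
  · rw [c4, hQ.fix g hg]
  exact hQ.le hg c ⟨fst_ne_iff.2 ⟨c3, c1⟩, fst_ne_iff.2 ⟨c4, c2⟩⟩

end PS

end Cfsg.Agent.PT
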