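import Mathlib
import Cfsg.Agent.PT.BNa

/-! Polar spaces with a group: flags, panels and root groups. -/

set_option autoImplicit false

namespace Cfsg.Agent.PT

open Cfsg.Agent.Ch Cfsg.Agent.Cl.EB
open scoped Pointwise

variable {G Ω : Type*} [Group G] [MulAction G Ω] {R : Ω → Ω → Prop} {p m : ℕ}

/-- The perps of the subspaces of the standard flag. -/
def PA (R : Ω → Ω → Prop) (v : Jx m → Ω) (t : ℤ) : Set Ω := {c | ∀ a, t < ht a → R (v a) c}

variable (G) in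
/-- The stabiliser of a part of the standard flag. -/
def St (R : Ω → Ω → Prop) (v : Jx m → Ω) (T : Set ℤ) : Subgroup G :=
  ⨅ t ∈ T, MulAction.stabilizer G (PA R v t)

variable (G) in
/-- The stabiliser of the standard flag. -/
abbrev BB (R : Ω → Ω → Prop) (v : Jx m → Ω) : Subgroup G := St G R v (Set.Ici 0)

variable (G) in
/-- The stabiliser of a panel. -/
abbrev PP (R : Ω → Ω → Prop) (v : Jx m → Ω) (i : Fin m) : Subgroup G :=
  St G R v {t | 0 ≤ t ∧ t ≠ (m : ℤ) - i - 1}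

/-- `g` permutes the frame by `π`. -/
def Mon (v : Jx m → Ω) (g : G) (π : SP m) : Prop := ∀ a, g • v a = v (π.1 a)

/-- The first `k` indices. -/
def Ik (m k : ℕ) : Set (Fin m) := {j | (j : ℕ) < k}

/-- The simple reflections. -/
noncomputable def sgm (i : Fin m) : SP m := sf (D := False) False.elim i

variable (G) in
/-- The elements fixing the half apartment of the root `e_a + e_b`. -/
def XS (R : Ω → Ω → Prop) (v : Jx m → Ω) (a b : Jx m) : Set G :=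
  {g | ∀ n π a' b', Mon v n π → π.1 a' = a → π.1 b' = b → 0 < ht a' + ht b' →
    n⁻¹ * (g * n) ∈ BB G R v}

variable {v : Jx m → Ω} {T : Set ℤ} {g k n : G} {π π' : SP m} {i : Fin m}

theorem sgm_apply (i : Fin m) (c : Jx m) : (sgm i).1 c = rfF (i, true) (sq i) c := by
  simp [sgm, sf, rf_apply, sp]

theorem ht_fst (a : Jx m) : ht a = m - a.1 ∨ ht a = -(m - a.1) := by
  obtain ⟨i, _ | _⟩ := a
  exacts [Or.inr rfl, Or.inl rfl]

theorem sq_ne (i : Fin m) : sq i ≠ bar (i, true) := by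
  have := i.2
  rw [Ne, eq_iff_ht, ht_bar, ht_sq, ht_tt]
  split_ifs <;> omega

theorem mem_St : g ∈ St G R v T ↔ ∀ t ∈ T, g • PA R v t = PA R v t := by
  simp [St, Subgroup.mem_iInf]

theorem inv_mul_mem_St : g⁻¹ * k ∈ St G R v T ↔ ∀ t ∈ T, k • PA R v t = g • PA R v t := by
  simp only [mem_St, mul_smul, inv_smul_eq_iff]

theorem BB_le (i : Fin m) : BB G R v ≤ PP G R v i := fun _ hg =>
  mem_St.2 fun t ht => mem_St.1 hg t ht.1

theorem Mon.one : Mon v (1 : G) 1 := fun _ => one_smul _ _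

theorem Mon.mul (h1 : Mon v g π) (h2 : Mon v k π') : Mon v (g * k) (π * π') := fun a => by
  rw [mul_smul, h2, h1]; rfl

theorem Mon.inv (h1 : Mon v g π) : Mon v g⁻¹ π⁻¹ := fun a => by
  rw [inv_smul_eq_iff, h1]; simp

theorem Mon.pow (h1 : Mon v g π) (l : ℕ) : Mon v (g ^ l) (π ^ l) := by
  induction l with
  | zero => simpa using Mon.one
  | succ l ih => rw [pow_succ, pow_succ]; exact ih.mul h1

variable (G) in
/-- The stabiliser of the frame. -/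
def NN (v : Jx m → Ω) : Subgroup G where
  carrier := {g | ∃ π, Mon v g π}
  one_mem' := ⟨1, Mon.one⟩
  mul_mem' := fun ⟨_, h1⟩ ⟨_, h2⟩ => ⟨_, h1.mul h2⟩
  inv_mem' := fun ⟨_, h1⟩ => ⟨_, h1.inv⟩

theorem RI_sub {l : ℕ} (hl : l ≤ m) : RI R v (Ik m l) ⊆ PA R v (m - l) := fun _ hc a ha =>
  hc a (show (a.1 : ℕ) < l by have := ht_fst a; have := a.1.2; omega)

theorem XS_sub (i : Fin m) : XS G R v (i, true) (sq i) ⊆ BB G R v := fun g hg => by
  have := i.2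
  simpa using hg 1 1 (i, true) (sq i) Mon.one rfl rfl (by rw [ht_sq, ht_tt]; split_ifs <;> omega)

theorem xs_or {a b : Jx m} (hab : b ≠ bar a) {s : G} (hs : Mon v s (rf a b hab)) (hn : Mon v n π) :
    (∀ x ∈ XS G R v a b, n⁻¹ * (x * n) ∈ BB G R v) ∨
      ∀ x ∈ XS G R v a b, (s * n)⁻¹ * (x * (s * n)) ∈ BB G R v := by
  obtain ⟨a, rfl⟩ := π.1.surjective a
  obtain ⟨b, rfl⟩ := π.1.surjective b
  by_cases h1 : 0 < ht a + ht b
  · exact Or.inl fun x hx => hx n π a b hn rfl rfl h1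
  have h2 : b ≠ bar a := fun e => hab (by rw [e, SP.map_bar])
  have h3 := ht_bound (π.1 a)
  refine Or.inr fun x hx => hx _ _ (bar b) (bar a) (hs.mul hn) ?_ ?_ ?_
  · change rfF _ _ (π.1 _) = _
    rw [SP.map_bar, eq_iff_ht, ht_rfF, ht_bar]
    split_ifs <;> omega
  · change rfF _ _ (π.1 _) = _
    rw [SP.map_bar, eq_iff_ht, ht_rfF, ht_bar]
    split_ifs <;> omega
  · rw [Ne, eq_iff_ht, ht_bar] at h2
    rw [ht_bar, ht_bar]
    omega

/-- The double coset axiom from its geometric ingredients. -/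
theorem bn_two {B P : Subgroup G} {X : Set G} {s : G} (hBP : B ≤ P) (hs : s ∈ P) (hs' : s ∉ B)
    (h2 : s * s ∈ B) (hT : ∀ g ∈ P, g ∈ B ∨ ∃ x ∈ X, (x * s)⁻¹ * g ∈ B) (hX : X ⊆ B)
    (hn : (∀ x ∈ X, n⁻¹ * (x * n) ∈ B) ∨ ∀ x ∈ X, (s * n)⁻¹ * (x * (s * n)) ∈ B) {b : G}
    (hb : b ∈ B) : s * b * n ∈ DoubleCoset.doubleCoset (s * n) (B : Set G) B ∪
      DoubleCoset.doubleCoset n (B : Set G) B := by
  have dec : ∀ b ∈ B, ∃ x ∈ X, ∃ b' ∈ B, s * b = b' * s * x⁻¹ := fun b hb => by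
    obtain ⟨x, hx, e⟩ := (hT (b⁻¹ * s) (mul_mem (inv_mem (hBP hb)) hs)).resolve_left fun e =>
      hs' ((B.mul_mem_cancel_left (inv_mem hb)).1 e)
    exact ⟨x, hx, _, mul_mem (mul_mem h2 (inv_mem e)) (inv_mem h2), by group⟩
  obtain ⟨x, hx, b', hb', e⟩ := dec b hb
  rw [e]
  rcases hn with hn | hn
  · exact Or.inl (DoubleCoset.mem_doubleCoset.2 ⟨b', hb', _, inv_mem (hn x hx), by group⟩)
  rcases hT (s⁻¹⁻¹ * x⁻¹ * s⁻¹) (mul_mem (mul_mem (inv_mem (inv_mem hs)) (inv_mem (hBP (hX hx))))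
    (inv_mem hs)) with h3 | ⟨y, hy, h3⟩
  · exact Or.inl (DoubleCoset.mem_doubleCoset.2 ⟨_, mul_mem hb' h3, 1, one_mem _, by group⟩)
  · obtain ⟨z, hz, c, hc, e'⟩ := dec _ h3
    refine Or.inr (DoubleCoset.mem_doubleCoset.2 ⟨_, mul_mem (mul_mem (mul_mem hb' (hX hy)) hc) h2,
      _, inv_mem (hn z hz), ?_⟩)
    calc _ = b' * y * (s * ((y * s)⁻¹ * (s⁻¹⁻¹ * x⁻¹ * s⁻¹))) * (s * n) := by group
      _ = _ := by rw [e']; group

namespace PS

variable (h : PS R G p)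
include h

theorem mem_smul_PA {t : ℤ} {c : Ω} : c ∈ g • PA R v t ↔ ∀ a, t < ht a → R (g • v a) c := by
  simp only [Set.mem_smul_set_iff_inv_smul_mem, PA, Set.mem_ofPred_eq, h.inv_left]

theorem ch_eq (hn : Mon v n π) {t : ℤ} (H : ∀ a, t < ht a → ∃ b, t < ht b ∧
    g • v (π.1 b) = v (π.1 b) ∧ pp R {v (π.1 b), g • v (π.1 a)} = pp R {v (π.1 b), v (π.1 a)}) :
    (g * n) • PA R v t = n • PA R v t := by
  ext c
  rw [h.mem_smul_PA, h.mem_smul_PA]
  simp only [mul_smul, hn _]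
  refine ⟨fun hc a ha => ?_, fun hc a ha => ?_⟩
  · obtain ⟨b, h1, h2, h3⟩ := H a ha
    exact (pp2_eq.1 h3 c (h2 ▸ hc b h1)).1 (hc a ha)
  · obtain ⟨b, h1, -, h3⟩ := H a ha
    exact (pp2_eq.1 h3 c (hc b h1)).2 (hc a ha)

theorem mem_BB_of (H : ∀ a, 0 < ht a → ∃ b, ht a ≤ ht b ∧ g • v b = v b ∧
    pp R {v b, g • v a} = pp R {v b, v a}) : g ∈ BB G R v := mem_St.2 fun t ht => by
  have := h.ch_eq (g := g) (Mon.one (v := v)) (t := t) fun a ha => by
    obtain ⟨b, h1, h2⟩ := H a (lt_of_le_of_lt ht ha)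
    exact ⟨b, ha.trans_le h1, h2⟩
  simpa using this

theorem mem_BB_of_fix (H : ∀ i, g • v (i, true) = v (i, true)) : g ∈ BB G R v :=
  h.mem_BB_of fun ⟨i, s⟩ ha => by
    cases s
    · have := i.2
      rw [ht_ff] at ha
      omega
    · exact ⟨_, le_rfl, H i, by rw [H i]⟩

theorem xs_of {a b : Jx m} (hab : b ≠ bar a) (h1 : ∀ c, c ≠ bar a → c ≠ bar b → g • v c = v c)
    (h2 : a ≠ b → pp R {v a, g • v (bar b)} = pp R {v a, v (bar b)} ∧
      pp R {v b, g • v (bar a)} = pp R {v b, v (bar a)}) : g ∈ XS G R v a b := by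
  rintro n π a b hn rfl rfl hp
  refine inv_mul_mem_St.2 fun t ht => h.ch_eq hn fun e he => ?_
  have ht' : 0 ≤ t := ht
  have h3 : e = bar a ∨ e = bar b → π.1 a ≠ π.1 b := fun h3 h4 => by
    obtain rfl := π.1.injective h4
    rw [or_self, eq_iff_ht, ht_bar] at h3
    omega
  by_cases e1 : e = bar b
  · refine ⟨a, ?_, h1 _ (ne_bar _) fun e => hab (by rw [e, bar_bar]), ?_⟩
    · rw [eq_iff_ht, ht_bar] at e1; omega
    · rw [e1, SP.map_bar]; exact (h2 (h3 (Or.inr e1))).1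
  by_cases e2 : e = bar a
  · refine ⟨b, ?_, h1 _ hab (ne_bar _), ?_⟩
    · rw [eq_iff_ht, ht_bar] at e2; omega
    · rw [e2, SP.map_bar]; exact (h2 (h3 (Or.inl e2))).2
  have h4 := h1 (π.1 e) (by rwa [← SP.map_bar, Ne, π.1.apply_eq_iff_eq])
    (by rwa [← SP.map_bar, Ne, π.1.apply_eq_iff_eq])
  exact ⟨e, he, h4, by rw [h4]⟩

theorem mon_mem_St (hn : Mon v n π) (H : ∀ t ∈ T, ∀ a, t < ht (π.1 a) ↔ t < ht a) :
    n ∈ St G R v T := mem_St.2 fun t ht => Set.ext fun c => by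
  rw [h.mem_smul_PA]
  simp only [hn _]
  refine ⟨fun hc a ha => ?_, fun hc a ha => hc _ ((H t ht a).2 ha)⟩
  obtain ⟨a, rfl⟩ := π.1.surjective a
  exact hc a ((H t ht a).1 ha)

theorem sgm_mem_PP {s : G} (hs : Mon v s (sgm i)) : s ∈ PP G R v i :=
  h.mon_mem_St hs fun t ⟨h1, h2⟩ a => by
    have := i.2
    have := ht_bound a
    rw [sgm_apply, ht_rfF, ht_sq, ht_tt]
    split_ifs <;> omega

theorem mem_panel {c : Ω} : c ∈ g • PA R v (m - i - 1) ↔
    c ∈ g • PA R v (m - i) ∧ R (g • v (i, true)) c := by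
  simp only [h.mem_smul_PA]
  refine ⟨fun hc => ⟨fun a ha => hc a (by omega), hc _ (by rw [ht_tt]; omega)⟩, fun hc a ha => ?_⟩
  by_cases e : a = (i, true)
  · exact e ▸ hc.2
  · rw [eq_iff_ht, ht_tt] at e
    exact hc.1 a (by omega)

theorem mem_panel' (hg : g ∈ PP G R v i) {c : Ω} : c ∈ g • PA R v (m - i - 1) ↔
    c ∈ PA R v (m - i) ∧ R (g • v (i, true)) c := by
  rw [h.mem_panel, mem_St.1 hg _ ⟨by have := i.2; omega, by omega⟩]

theorem mem_BB_of_PP (hg : g ∈ PP G R v i) (hk : k ∈ PP G R v i)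
    (H : k • PA R v (m - i - 1) = g • PA R v (m - i - 1)) : g⁻¹ * k ∈ BB G R v :=
  inv_mul_mem_St.2 fun t ht => by
    by_cases e : t = m - i - 1
    · rw [e, H]
    · rw [mem_St.1 hg t ⟨ht, e⟩, mem_St.1 hk t ⟨ht, e⟩]

variable (hv : MF R v)
include hv

theorem mon_BB (hn : Mon v n π) : n ∈ BB G R v ↔ π = 1 := by
  refine ⟨fun hb => ?_, fun e => h.mon_mem_St hn fun t _ a => by rw [e]; rfl⟩
  have h1 : ∀ t, 0 ≤ t → ∀ a, t < ht a ↔ t < ht (π.1 a) := fun t ht a => by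
    have h2 := Set.ext_iff.1 (mem_St.1 hb t ht) (v (bar (π.1 a)))
    rw [h.mem_smul_PA] at h2
    simp only [hn _, PA, Set.mem_ofPred_eq, hv.rel, Ne, bar_inj, π.1.apply_eq_iff_eq] at h2
    refine ⟨fun h3 => by_contra fun h4 => h2.2 (fun b hb e => h4 (e ▸ hb)) a h3 rfl,
      fun h3 => by_contra fun h4 => h2.1 (fun b hb e => h4 (e ▸ hb)) _ h3 rfl⟩
  have h2 : ∀ a, 0 < ht a → π.1 a = a := fun a ha => by
    have h3 := h1 (ht a) ha.le a
    have h4 := h1 (ht a - 1) (by omega) a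
    rw [eq_iff_ht]
    omega
  refine Subtype.ext (Equiv.ext fun a => ?_)
  rcases (ht_bound a).1 with h3 | h3
  · exact h2 a (by omega)
  · have := h2 (bar a) (by rw [ht_bar]; omega)
    rwa [SP.map_bar, bar_inj] at this

theorem prj {l : ℕ} (hl : l ≤ m) {z : Ω} (hz : z ∈ PA R v (m - l)) :
    (∀ c ∈ PA R v (m - l), R z c) ∨
      ∃ z' ∈ RI R v (Ik m l), ∀ c ∈ PA R v (m - l), (R z' c ↔ R z c) := by
  suffices H : ∀ j ≤ l, (∀ c ∈ PA R v (m - l), R z c) ∨ ∃ z' ∈ PA R v (m - l),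
      (∀ a : Fin m, (a : ℕ) < j → R (v (a, false)) z') ∧ ∀ c ∈ PA R v (m - l), (R z' c ↔ R z c) by
    refine (H l le_rfl).imp_right fun ⟨z', h1, h2, h3⟩ => ⟨z', fun ⟨a, s⟩ ha => ?_, h3⟩
    have ha' : (a : ℕ) < l := ha
    cases s
    exacts [h2 a ha, h1 _ (by rw [ht_tt]; omega)]
  intro j
  induction j with
  | zero => exact fun _ => Or.inr ⟨z, hz, fun _ h => absurd h (Nat.not_lt_zero _), fun _ _ => Iff.rfl⟩
  | succ j ih =>
    intro hj
    rcases ih (by omega) with H | ⟨z', h1, h2, h3⟩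
    · exact Or.inl H
    have hx : ∀ c ∈ PA R v (m - l), R (v (⟨j, by omega⟩, true)) c := fun c hc =>
      hc _ (by rw [ht_tt]; dsimp only; omega)
    by_cases e : v (⟨j, by omega⟩, true) = z'
    · exact Or.inl fun c hc => (h3 c hc).1 (e ▸ hx c hc)
    obtain ⟨w, h4, h5⟩ := h.proj (hx z' h1) e (hv.not_bar _)
    refine Or.inr ⟨w, fun a ha => h.symm _ _ ((h5 _ ((hv.rel _ _).2 ?_)).2 (h.symm _ _ (h1 a ha))),
      fun a ha => h.symm _ _ ?_, fun c hc => (h5 c (hx c hc)).trans (h3 c hc)⟩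
    · rw [Ne, eq_iff_ht, ht_bar, ht_tt]; dsimp only; omega
    · by_cases e' : (a : ℕ) = j
      · subst e'
        exact h4
      · exact (h5 _ (hv.of_fst fun e => e' (congrArg Fin.val e).symm)).2
          (h.symm _ _ (h2 a (by omega)))

theorem exists_z (hg : g ∈ PP G R v i) : ∃ z ∈ RI R v (Ik m i), ∀ c, c ∈ g • PA R v (m - i - 1) ↔
    c ∈ PA R v (m - i) ∧ R z c := by
  have hi := i.2
  have h1 := mem_St.1 hg (m - i) ⟨by omega, by omega⟩
  have h2 : ∀ s, g • v (i, s) ∈ PA R v (m - i) := fun s =>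
    h1 ▸ Set.smul_mem_smul_set (RI_sub hi.le (hv.mem_RI (Nat.lt_irrefl _)))
  rcases h.prj hv hi.le (h2 true) with H | ⟨z, hz, H⟩
  · exact absurd ((h.inv_iff g).1 (H _ (h2 false))) (hv.not_bar (i, true))
  · exact ⟨z, hz, fun c => by rw [h.mem_panel' hg]; exact and_congr_right fun hc => (H c hc).symm⟩

theorem move_last (hi : (i : ℕ) + 1 = m) {Q : Subgroup G} (hQ : RdI R p v (Ik m i) (v (i, true)) Q)
    {z : Ω} (hz : z ∈ RI R v (Ik m i)) (h1 : z ≠ v (i, true)) :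
    ∃ x ∈ Q, x ∈ XS G R v (i, true) (sq i) ∧ x • v (bar (sq i)) = z := by
  have e : sq i = (i, true) := dif_neg (by omega)
  have key : ∀ a : Jx m, a.1 ∈ Ik m i ∨ a = (i, true) ∨ a = bar (i, true) := fun a => by
    have := a.1.2
    rw [← fst_eq_iff, Fin.ext_iff]
    exact lt_or_eq_of_le (show (a.1 : ℕ) ≤ i by omega)
  have h2 : ¬ R (v (i, true)) z := fun h2 => by
    obtain ⟨w, h3, h4⟩ := h.proj h2 h1.symm (hv.not_bar _)
    refine hv.max w fun a => h.symm _ _ ?_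
    rcases key a with h5 | rfl | rfl
    · exact (h4 _ (h.symm _ _ (hv.mem_RI (I := Ik m i) (a := (i, true)) (Nat.lt_irrefl _) a h5))).2
        (h.symm _ _ (hz a h5))
    · exact (h4 _ (h.refl _)).2 (h.symm _ _ h2)
    · exact h3
  obtain ⟨x, hx, h3⟩ := hQ.tr (v (bar (i, true))) (hv.mem_RI (Nat.lt_irrefl _)) z hz (hv.not_bar _) h2
  rw [e]
  refine ⟨x, hx, h.xs_of (ne_bar _) (fun c hc _ => ?_) fun e => absurd rfl e, h3⟩
  rcases key c with h5 | rfl | rfl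
  exacts [hQ.le hx c h5, hQ.fix x hx, absurd rfl hc]

theorem move_lt (hi : (i : ℕ) + 1 < m) {z : Ω} (hz : z ∈ RI R v (Ik m i)) (h1 : z ≠ v (i, true))
    (h2 : ∀ c ∈ PA R v (m - i - 2), R z c) :
    ∃ x ∈ XS G R v (i, true) (sq i), x • v (bar (sq i)) = z := by
  have e : sq i = (⟨i + 1, hi⟩, false) := dif_pos hi
  have hne : ((i, true) : Jx m).1 ≠ (sq i).1 := fun e' => by
    rw [e] at e'; have := congrArg Fin.val e'; simp at this
  have h3 : R (v (i, true)) z := h.symm _ _ (h2 _ fun a ha => (hv.rel _ _).2 (by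
    rw [Ne, eq_iff_ht, ht_bar, ht_tt]; omega))
  obtain ⟨w, h4, h5⟩ := h.proj h3 h1.symm (hv.not_bar _)
  have hI : ∀ c ∈ RI R v (Ik m (i + 1)), R (v (i, true)) c := fun c hc =>
    hc _ (Nat.lt_succ_self _)
  have h6 : v (bar (sq i)) = w := by
    refine h.ndI hv (I := Ik m (i + 1)) (hv.mem_RI (by rw [e]; exact Nat.lt_irrefl _)) (fun a ha => ?_)
      fun c hc hr => (h5 c (hI c hc)).2 (h2 c fun a ha => ?_)
    · by_cases e' : a.1 = i
      · rcases (fst_eq_iff (b := (i, true))).1 e' with rfl | rfl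
        · exact h.symm _ _ ((h5 _ (h.refl _)).2 (h.symm _ _ h3))
        · exact h.symm _ _ h4
      · have ha' : (a.1 : ℕ) < i + 1 := ha
        have : (a.1 : ℕ) ≠ i := fun e => e' (Fin.ext e)
        exact h.symm _ _ ((h5 _ (hv.of_fst (Ne.symm e'))).2
          (h.symm _ _ (hz a (show (a.1 : ℕ) < i by omega))))
    · by_cases e' : a = bar (sq i)
      · exact e' ▸ hr
      · rw [eq_iff_ht, ht_bar, ht_sq, if_pos (by omega)] at e'
        exact hc a (show (a.1 : ℕ) < i + 1 by have := ht_fst a; have := a.1.2; omega)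
  have h7 : pp R {v (i, true), z} = pp R {v (i, true), v (bar (sq i))} :=
    pp2_eq.2 fun c hc => by rw [h6, h5 c hc]
  obtain ⟨x, h8, h9, h10⟩ := h.exists_move hv hne h1 h7
  exact ⟨x, h.xs_of (sq_ne i) h9 fun _ => ⟨by rw [h8, h7], h10⟩, h8⟩

theorem trans_of {s : G} (hs : Mon v s (sgm i)) {X : Set G} (hX : ∀ z ∈ RI R v (Ik m i),
    z ≠ v (i, true) → ((i : ℕ) + 1 < m → ∀ c ∈ PA R v (m - i - 2), R z c) →
      ∃ x ∈ X, x ∈ BB G R v ∧ x • v (bar (sq i)) = z) (hg : g ∈ PP G R v i) :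
    g ∈ BB G R v ∨ ∃ x ∈ X, (x * s)⁻¹ * g ∈ BB G R v := by
  obtain ⟨z, hz, H⟩ := h.exists_z hv hg
  by_cases e : z = v (i, true)
  · left
    simpa using h.mem_BB_of_PP (one_mem _) hg (Set.ext fun c => by
      rw [H, h.mem_panel' (one_mem _), one_smul, e])
  obtain ⟨x, hx, hb, h1⟩ := hX z hz e fun hi c hc => ((H c).1 (by
    rw [← mem_St.1 hg _ ⟨by omega, by omega⟩, h.mem_smul_PA] at hc
    exact h.mem_smul_PA.2 fun a ha => hc a (by omega))).2
  have h2 := mul_mem (BB_le i hb) (h.sgm_mem_PP hs)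
  refine Or.inr ⟨x, hx, h.mem_BB_of_PP h2 hg (Set.ext fun c => ?_)⟩
  rw [H, h.mem_panel' h2, mul_smul, hs, sgm_apply, rfF, if_pos rfl, h1]

theorem move {z : Ω} (hz : z ∈ RI R v (Ik m i)) (h1 : z ≠ v (i, true))
    (h2 : (i : ℕ) + 1 < m → ∀ c ∈ PA R v (m - i - 2), R z c) :
    ∃ x ∈ XS G R v (i, true) (sq i), x ∈ BB G R v ∧ x • v (bar (sq i)) = z := by
  by_cases hi : (i : ℕ) + 1 < m
  · obtain ⟨x, hx, e⟩ := h.move_lt hv hi hz h1 (h2 hi)
    exact ⟨x, hx, XS_sub i hx, e⟩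
  · obtain ⟨Q, hQ⟩ := h.radI hv (I := Ik m i) (a := v (i, true)) (hv.mem_RI (Nat.lt_irrefl _))
    obtain ⟨x, -, hx, e⟩ := h.move_last hv (by have := i.2; omega) hQ hz h1
    exact ⟨x, hx, XS_sub i hx, e⟩

theorem exists_conj {s : G} (hs : Mon v s (sgm i)) : ∃ x ∈ BB G R v, s⁻¹ * (x * s) ∉ BB G R v := by
  have hi := i.2
  have h0 : v (bar (sq i)) ∈ RI R v (Ik m i) := hv.mem_RI (by
    have := ht_fst (sq i)
    have := ht_sq i
    change ¬ ((sq i).1 : ℕ) < i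
    split_ifs at this <;> omega)
  obtain ⟨z, hz, h1, h2, h3⟩ : ∃ z ∈ RI R v (Ik m i), z ≠ v (i, true) ∧ z ≠ v (bar (sq i)) ∧
      ((i : ℕ) + 1 < m → ∀ c ∈ PA R v (m - i - 2), R z c) := by
    by_cases hi' : (i : ℕ) + 1 < m
    · have h4 : ht (bar (sq i)) = m - i - 1 := by rw [ht_bar, ht_sq, if_pos (by omega), neg_neg]
      obtain ⟨z, hz, h1, h2⟩ := h.thick (v (i, true)) (v (bar (sq i))) ((hv.rel _ _).2 (by
        rw [Ne, eq_iff_ht, h4, ht_bar, ht_tt]; omega)) fun e => by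
          have := congrArg ht (hv.inj e)
          rw [h4, ht_tt] at this
          omega
      exact ⟨z, fun a ha => h.symm _ _ (h.of_lin hz (h.symm _ _ (hv.mem_RI (I := Ik m i)
        (a := (i, true)) (Nat.lt_irrefl _) a ha)) (h.symm _ _ (h0 a ha))), h1, h2, fun _ c hc =>
          h.of_lin hz (hc _ (by rw [ht_tt]; omega)) (hc _ (by rw [h4]; omega))⟩
    · obtain ⟨z, hz, h1, h2⟩ := h.opI hv (I := Ik m i) (a := v (i, true)) (hv.mem_RI (Nat.lt_irrefl _))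
        (v (bar (sq i)))
      exact ⟨z, hz, fun e => h2 (e ▸ h.refl _), h1, fun e => absurd e hi'⟩
  obtain ⟨x, -, hx, e⟩ := h.move hv hz h1 h3
  refine ⟨x, hx, fun hb => h2 (h.ndI hv hz h0 fun c hc hr => ?_)⟩
  have h4 := inv_mul_mem_St.1 hb (m - i - 1) (show (0 : ℤ) ≤ _ by omega)
  have h5 := Set.ext_iff.1 h4 c
  rw [h.mem_panel' (mul_mem (BB_le i hx) (h.sgm_mem_PP hs)), h.mem_panel' (h.sgm_mem_PP hs), mul_smul,
    hs, sgm_apply, rfF, if_pos rfl, e] at h5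
  exact (h5.1 ⟨RI_sub hi.le hc, hr⟩).2

end PS

end Cfsg.Agent.PT
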