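import Mathlib
import Cfsg.Agent.GT.FixedPointFreeThompson
import Cfsg.Agent.GT.FrobeniusFpf
import Cfsg.Agent.GT.TransferEval
import Cfsg.Agent.GT.PGroupChain
import Cfsg.Agent.GT.PPrimeCore
import Cfsg.Agent.GT.Fitting
import Cfsg.Agent.FT.Wielandt

/-! A group of odd order with a fixed point free automorphism of order a power of two and a
commuting automorphism of order `p` whose fixed points are central. -/

set_option autoImplicit false
set_option linter.style.haveILetI false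
set_option linter.unusedSectionVars false

namespace Cfsg.Agent.PT.TWd

open Subgroup Cfsg.Agent.GT
open scoped commutatorElement

variable {G : Type*} [Group G] [Finite G]

/-- an element of order `p` normalizing a nontrivial `p`-group has a fixed point in it -/
theorem fixp {p : ℕ} (hp : p.Prime) {Q : Subgroup G} (hQ : IsPGroup p Q) {x : G}
    (hx : x ^ p = 1) (hn : x ∈ normalizer (Q : Set G)) (hne : Q ≠ ⊥) :
    ∃ q ∈ Q, q ≠ 1 ∧ Commute q x := by
  haveI := Fact.mk hp
  have hX : IsPGroup p (zpowers x) := by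
    rintro ⟨y, hy⟩
    refine ⟨1, Subtype.ext ?_⟩
    obtain ⟨i, rfl⟩ := mem_zpowers_iff.mp hy
    change (x ^ i) ^ (p ^ 1) = 1
    rw [pow_one, ← zpow_natCast, ← zpow_mul, mul_comm, zpow_mul, zpow_natCast, hx, one_zpow]
  have h := PG.inf_centralizer_ne_bot_of_isPGroup hQ hX (zpowers_le.mpr hn) hne
  obtain ⟨⟨q, hq1, hq2⟩, hq⟩ := (Subgroup.ne_bot_iff_exists_ne_one).mp h
  refine ⟨q, hq1, fun e => hq (Subtype.ext e), ?_⟩
  exact (mem_centralizer_iff.mp hq2 x (mem_zpowers x)).symm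

theorem norm_of_conj {Q : Subgroup G} {x : G} (h : ∀ q ∈ Q, x * q * x⁻¹ ∈ Q) :
    x ∈ normalizer (Q : Set G) :=
  mem_normalizer_fintype (S := (Q : Set G)) h

theorem inf_cent_eq_bot {Q : Subgroup G} {x : G} (h : ∀ q ∈ Q, Commute q x → q = 1) :
    Q ⊓ centralizer {x} = ⊥ := by
  rw [eq_bot_iff]
  rintro q ⟨h1, h2⟩
  exact h q h1 (mem_centralizer_singleton_iff.mp h2)

theorem exists_invol {t : G} {j : ℕ} (ht2 : t ^ 2 ^ j = 1) (ht1 : t ≠ 1) :
    ∃ u ∈ zpowers t, u ≠ 1 ∧ u * u = 1 := by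
  induction j with
  | zero => exact absurd (by simpa using ht2) ht1
  | succ j ih =>
    by_cases h : t ^ 2 ^ j = 1
    · exact ih h
    · refine ⟨t ^ 2 ^ j, npow_mem_zpowers t _, h, ?_⟩
      rw [← pow_add, ← two_mul, ← pow_succ', ht2]

theorem nil {p : ℕ} (hp : p.Prime) {U Z : Subgroup G} [U.Normal] {t x : G} {j : ℕ}
    (hodd : Odd (Nat.card U)) (ht2 : t ^ 2 ^ j = 1) (ht1 : t ≠ 1)
    (htU : ∀ c ∈ U, Commute c t → c = 1) (hxt : Commute x t) (hx : x ^ p = 1)
    (hxU : ∀ c ∈ U, Commute c x → c ∈ Z) (hZc : ∀ z ∈ Z, ∀ c ∈ U, Commute c z)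
    (hZp : ∀ z ∈ Z, z ^ p = 1)
    (hsr : ∀ s ∈ zpowers t, s ≠ 1 → ∀ z ∈ Z, Commute z s → z = 1) :
    Group.IsNilpotent U := by
  haveI := Fact.mk hp
  have hnU : ∀ g : G, g ∈ normalizer (U : Set G) := fun g => by
    rw [normalizer_eq_top]; trivial
  obtain ⟨P, hP⟩ := Frob.exists_sylow_normalized_of_fpf (hnU t) (inf_cent_eq_bot htU) p
  set S : Subgroup G := (P : Subgroup U).map U.subtype with hS
  have hSU : S ≤ U := map_subtype_le _
  have hSp : IsPGroup p S := P.isPGroup'.map _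
  have hxS : x ∈ normalizer (S : Set G) := hP ⟨hnU x, mem_centralizer_singleton_iff.mpr hxt⟩
  have htS : zpowers t ≤ normalizer (S : Set G) :=
    zpowers_le.mpr (hP ⟨hnU t, mem_centralizer_singleton_iff.mpr rfl⟩)
  -- the powers of `t` act without fixed points on `S`
  have hsemi : FT.Semiregular S (zpowers t) := by
    intro s hs hs1
    by_contra hne
    have hxs : Commute x s := by
      obtain ⟨i, rfl⟩ := hs
      exact hxt.zpow_right i
    obtain ⟨q, ⟨hq1, hq2⟩, hq, hqx⟩ := fixp hp (Q := S ⊓ centralizer {s}) (hSp.to_le inf_le_left) hx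
      (norm_of_conj fun q hq => ⟨(mem_normalizer_iff.mp hxS q).mp hq.1, by
        have h1 : Commute q s := mem_centralizer_singleton_iff.mp hq.2
        exact mem_centralizer_singleton_iff.mpr ((hxs.mul_left h1).mul_left hxs.inv_left)⟩) hne
    exact hq (hsr s hs hs1 q (hxU q (hSU hq1) hqx) (mem_centralizer_singleton_iff.mp hq2))
  obtain ⟨u, hu, hu1, hu2⟩ := exists_invol ht2 ht1
  have hSab : IsMulCommutative S := (Frob.conj_eq_inv_of_fpf (htS hu) hu2 (hsemi u hu hu1)).2
  have hSc : ∀ a ∈ S, ∀ b ∈ S, Commute a b := fun a ha b hb =>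
    congrArg Subtype.val (hSab.is_comm.comm (⟨a, ha⟩ : S) ⟨b, hb⟩)
  -- `S` meets the derived group trivially
  have hder : ∀ q ∈ S, q ∈ ⁅U, U⁆ → q = 1 := by
    by_contra hcon
    have hne : S ⊓ ⁅U, U⁆ ≠ ⊥ := by
      intro e
      apply hcon
      intro q h1 h2
      have : q ∈ S ⊓ ⁅U, U⁆ := ⟨h1, h2⟩
      rwa [e] at this
    obtain ⟨q, ⟨hq1, hq2⟩, hq, hqx⟩ := fixp hp (Q := S ⊓ ⁅U, U⁆) (hSp.to_le inf_le_left) hx
      (norm_of_conj fun q hq => ⟨(mem_normalizer_iff.mp hxS q).mp hq.1,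
        (inferInstance : (⁅U, U⁆ : Subgroup G).Normal).conj_mem q hq.2 x⟩) hne
    have hqZ := hxU q (hSU hq1) hqx
    have h1 : (⟨q, hSU hq1⟩ : U) ∈ (P : Subgroup U) ⊓ commutator U ⊓ center U := by
      refine ⟨⟨?_, ?_⟩, ?_⟩
      · obtain ⟨q', hq', e⟩ := hq1
        have : q' = ⟨q, hSU ⟨q', hq', e⟩⟩ := Subtype.ext e
        exact this ▸ hq'
      · rw [← map_subtype_commutator] at hq2
        obtain ⟨q', hq', e⟩ := hq2
        have : q' = ⟨q, hSU hq1⟩ := Subtype.ext e
        exact this ▸ hq'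
      · exact mem_center_iff.mpr fun c => Subtype.ext (hZc q hqZ c c.2)
    have h2 := Tr.sylow_inf_commutator_inf_center_le P h1
    have h3 : (⁅(P : Subgroup U), (P : Subgroup U)⁆ : Subgroup U) = ⊥ := by
      rw [commutator_eq_bot_iff_le_centralizer]
      intro a ha b hb
      exact Subtype.ext (hSc b ⟨b, hb, rfl⟩ a ⟨a, ha, rfl⟩)
    rw [h3] at h2
    exact hq (congrArg Subtype.val h2)
  have hburn : normalizer ((P : Subgroup U) : Set U) ≤ centralizer ((P : Subgroup U) : Set U) := by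
    intro n hn a ha
    have h1 : n * a * n⁻¹ ∈ (P : Subgroup U) := (mem_normalizer_iff.mp hn a).mp ha
    have h2 : ⁅(n : G), (a : G)⁆ = 1 := by
      refine hder _ ⟨n * a * n⁻¹ * a⁻¹, mul_mem h1 (inv_mem ha), rfl⟩ ?_
      exact commutator_mem_commutator n.2 a.2
    exact Subtype.ext (commutatorElement_eq_one_iff_mul_comm.mp h2).symm
  have hnc := Tr.hasNormalPComplement_of_normalizer_le_centralizer P hburn
  set Q : Subgroup G := pResidualOf p U with hQ
  haveI : Q.Normal := pResidualOf_normal U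
  have hQU : Q ≤ U := map_subtype_le _
  have hQc : Nat.card Q = Nat.card (pResidual p U) := card_map_of_injective U.subtype_injective
  have hQp : ¬ p ∣ Nat.card Q := hQc ▸ hnc.not_dvd_card_pResidual
  have hnQ : ∀ g : G, g ∈ normalizer (Q : Set G) := fun g => by
    rw [normalizer_eq_top]; trivial
  haveI hQn : Group.IsNilpotent Q := by
    refine Frob.isNilpotent_of_inf_centralizer_eq_bot (hnQ x) hp hx (inf_cent_eq_bot ?_)
    intro q hq hqx
    have h1 := hZp q (hxU q (hQU hq) hqx)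
    by_contra hne
    exact hQp ((orderOf_eq_prime h1 hne) ▸ Q.orderOf_dvd_natCard hq)
  have hsup : S ⊔ Q = U := by
    rw [hS, hQ, pResidualOf, ← Subgroup.map_sup, sup_comm, (hnc.isComplement'_pResidual P).sup_eq_top,
      ← MonoidHom.range_eq_map, range_subtype]
  have hcent : S ≤ centralizer (Q : Set G) := by
    by_cases hS1 : S = ⊥
    · rw [hS1]; exact bot_le
    have hT1 : zpowers t ≠ ⊥ := fun e => ht1 (zpowers_eq_bot.mp e)
    have hF := FT.isFrob_of_semiregular htS hsemi hS1 hT1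
    refine (FT.Frobenius_Wielandt_fixpoint (M := Q) hF (fun g _ => hnQ g) ?_ inferInstance).2.1 ?_
    · rw [← hF.sdprod.card_eq]
      refine Nat.Coprime.mul_right ?_ ?_
      · obtain ⟨a, ha⟩ := IsPGroup.iff_card.mp hSp
        rw [ha]
        exact Nat.Coprime.pow_right _ ((Nat.Prime.coprime_iff_not_dvd hp).mpr hQp).symm
      · rw [Nat.card_zpowers]
        refine Nat.Coprime.coprime_dvd_right (orderOf_dvd_of_pow_eq_one ht2) ?_
        refine Nat.Coprime.pow_right _ ?_
        exact (Nat.coprime_two_right).mpr (Odd.of_dvd_nat hodd (card_dvd_of_le hQU))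
    · rw [eq_bot_iff]
      rintro q ⟨h1, h2⟩
      exact htU q (hQU h1) (mem_centralizer_iff.mp h2 t (mem_zpowers t)).symm
  haveI : Group.IsNilpotent S := hSp.isNilpotent
  rw [← hsup]
  exact isNilpotent_sup_of_le_centralizer hcent

end Cfsg.Agent.PT.TWd
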